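import Mathlib
import Cfsg.Agent.Lib.Helper67.SylowLemmas
import Cfsg.Agent.Lib.Helper71.CS3.Basics
import Cfsg.Agent.Lib.Helper81.CS3.NGDefs

/-!
# CS3 (S4284), part NG: small tools shared by [STEPA] and [MIX]
-/

set_option autoImplicit false

namespace Cfsg.Agent.Lib.Helper24.CS3

open Cfsg.Agent.Lib.Helper81.CS3

universe u

variable {G : Type u} [Group G]

/-- membership in the centralizer of an element -/
theorem mem_cent {g x : G} : g ∈ Subgroup.centralizer ({x} : Set G) ↔ Commute g x := by
  rw [Subgroup.mem_centralizer_singleton_iff]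
  exact Iff.rfl

/-- class index is invariant under conjugation -/
theorem idx_conj (g x : G) : idx (g * x * g⁻¹) = idx x := by
  unfold idx
  rw [← Cfsg.Agent.Lib.Helper67.ncard_conjClasses_carrier,
    ← Cfsg.Agent.Lib.Helper67.ncard_conjClasses_carrier]
  congr 2
  rw [ConjClasses.mk_eq_mk_iff_isConj, isConj_comm, isConj_iff]
  exact ⟨g, rfl⟩

/-- the order is invariant under conjugation -/
theorem orderOf_conj' (g x : G) : orderOf (g * x * g⁻¹) = orderOf x :=
  (MulAut.conj g).orderOf_eq x

/-- `idx x = 1` iff `x` is central -/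
theorem idx_one_iff (x : G) : idx x = 1 ↔ x ∈ Subgroup.center G :=
  Cfsg.Agent.Lib.Helper71.CS3.idx_eq_one_iff x

/-- the three possible class indices -/
theorem idx_mem {m n : ℕ} (hyp : Hyp G m n) (x : G) :
    idx x = 1 ∨ idx x = m ∨ idx x = m * n :=
  Cfsg.Agent.Lib.Helper71.CS3.idx_cases hyp x

/-- an element of class index `m` or `m n` is not central -/
theorem not_center_of_idx_m {m n : ℕ} (hyp : Hyp G m n) {x : G} (hx : idx x = m) :
    x ∉ Subgroup.center G := by
  intro h
  rw [← idx_one_iff, hx] at h
  have := hyp.2.1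
  omega

theorem not_center_of_idx_mn {m n : ℕ} (hyp : Hyp G m n) {x : G} (hx : idx x = m * n) :
    x ∉ Subgroup.center G := by
  intro h
  rw [← idx_one_iff, hx] at h
  have h1 := hyp.2.1
  have h2 := hyp.2.2.1
  have := Nat.eq_one_of_mul_eq_one_right h
  omega

/-- under NG a non-central `s`-element (`s ∣ m`) has class index `m n` -/
theorem idx_PM {m n s : ℕ} (hyp : Hyp G m n) (hng : NG G m) {b : G} (hb : PM m s b) :
    idx b = m * n := by
  obtain ⟨hs, hsm, ⟨k, hk⟩, hbc⟩ := hb
  rcases idx_mem hyp b with h | h | h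
  · exact absurd ((idx_one_iff b).mp h) hbc
  · exact absurd ⟨b, h, s, k, hs, hsm, hk⟩ hng
  · exact h

/-- subgroups of the same (finite) index, one inside the other, are equal -/
theorem eq_of_le_of_index_eq' [Finite G] {H K : Subgroup G} (hle : H ≤ K)
    (h : H.index = K.index) : H = K := by
  have h1 := Subgroup.relIndex_mul_index hle
  rw [h] at h1
  have hK : K.index ≠ 0 := Subgroup.index_ne_zero_of_finite
  have h3 : H.relIndex K = 1 := by
    have : H.relIndex K * K.index = 1 * K.index := by rw [h1, one_mul]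
    exact Nat.eq_of_mul_eq_mul_right (Nat.pos_of_ne_zero hK) this
  exact le_antisymm hle (Subgroup.relIndex_eq_one.mp h3)

/-- `C(a) ≤ C(b)` and equal class indices: `C(b) ≤ C(a)` -/
theorem commute_of_idx_eq [Finite G] {a b : G} (hle : ∀ g : G, Commute g a → Commute g b)
    (h : idx a = idx b) : ∀ g : G, Commute g b → Commute g a := by
  have hle' : Subgroup.centralizer ({a} : Set G) ≤ Subgroup.centralizer ({b} : Set G) := by
    intro g hg
    rw [mem_cent] at hg ⊢
    exact hle g hg
  have heq := eq_of_le_of_index_eq' hle' h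
  intro g hg
  rw [← mem_cent, heq, mem_cent]
  exact hg

/-- fact (b): if `C(w)` is abelian, every `v ∈ C(w)` of the same class index has `C(v) = C(w)` -/
theorem cent_eq_of_abC [Finite G] {w v : G} (hab : AbC w) (hv : Commute v w)
    (hidx : idx w = idx v) (g : G) : Commute g v ↔ Commute g w :=
  ⟨commute_of_idx_eq (fun g hg => hab g v hg hv) hidx g, fun hg => hab g v hg hv⟩

end Cfsg.Agent.Lib.Helper24.CS3
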