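import Mathlib
import Cfsg.Agent.Lib.Helper24.CS3.NGTools

/-!
# CS3 (S4284), part NG, package [STEPA]

An abelian centralizer of class size `m n` contains a primary element of class size `m`.
-/

set_option autoImplicit false

namespace Cfsg.Agent.Lib.Helper24.CS3

open Cfsg.Agent.Lib.Helper81.CS3

universe u

/-- counting: a subgroup `H` of the same order as a subgroup `C` containing the center and a
non-central `r`-element contains a non-central `r`-element -/
theorem exists_noncentral_pelem {G : Type u} [Group G] [Finite G] {r : ℕ} [Fact r.Prime]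
    (x0 : G) (k0 : ℕ) (hx0 : orderOf x0 = r ^ k0) (hx0c : x0 ∉ Subgroup.center G)
    (C H : Subgroup G) (hC : x0 ∈ C) (hZ : Subgroup.center G ≤ C)
    (hcard : Nat.card H = Nat.card C) :
    ∃ y ∈ H, y ∉ Subgroup.center G ∧ ∃ k : ℕ, orderOf y = r ^ k := by
  have hr : r.Prime := Fact.out
  -- `K = ⟨x0⟩ Z`
  have h1 : (Subgroup.center G).relIndex (Subgroup.zpowers x0 ⊔ Subgroup.center G) =
      (Subgroup.center G).relIndex (Subgroup.zpowers x0) := Subgroup.relIndex_sup_right _ _
  have h2 : (Subgroup.center G).relIndex (Subgroup.zpowers x0) ∣ r ^ k0 := by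
    have := Subgroup.relIndex_dvd_card (Subgroup.center G) (Subgroup.zpowers x0)
    rwa [Nat.card_zpowers, hx0] at this
  obtain ⟨j, -, hj⟩ := (Nat.dvd_prime_pow hr).mp h2
  have hj0 : j ≠ 0 := by
    rintro rfl
    rw [pow_zero, Subgroup.relIndex_eq_one] at hj
    exact hx0c (hj (Subgroup.mem_zpowers x0))
  have h3 := Subgroup.relIndex_mul_relIndex (⊥ : Subgroup G) (Subgroup.center G)
    (Subgroup.zpowers x0 ⊔ Subgroup.center G) bot_le le_sup_right
  rw [Subgroup.relIndex_bot_left, Subgroup.relIndex_bot_left, h1, hj, mul_comm] at h3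
  have hKle : Subgroup.zpowers x0 ⊔ Subgroup.center G ≤ C :=
    sup_le ((Subgroup.zpowers_le).mpr hC) hZ
  have h4 : r ^ ((Nat.card (Subgroup.center G)).factorization r + 1) ∣ Nat.card H := by
    rw [hcard]
    refine Dvd.dvd.trans ?_ (Subgroup.card_dvd_of_le hKle)
    rw [← h3, pow_succ, mul_comm]
    exact Nat.mul_dvd_mul (dvd_pow_self r hj0) (Nat.ordProj_dvd _ _)
  obtain ⟨T, hT⟩ := Sylow.exists_subgroup_card_pow_prime (G := ↥H) r h4
  by_contra hcon
  push Not at hcon
  have hTp : IsPGroup r (T.map H.subtype) := by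
    apply IsPGroup.of_card (n := (Nat.card (Subgroup.center G)).factorization r + 1)
    rw [Subgroup.card_map_of_injective H.subtype_injective]
    exact hT
  have hle : T.map H.subtype ≤ Subgroup.center G := by
    intro b hb
    by_contra hbc
    obtain ⟨k, hk⟩ := (IsPGroup.iff_orderOf.mp hTp) ⟨b, hb⟩
    have hbH : b ∈ H := by
      obtain ⟨c, -, rfl⟩ := Subgroup.mem_map.mp hb
      exact c.2
    exact hcon b hbH hbc k (by rw [← hk, Subgroup.orderOf_mk])
  have h5 := Subgroup.card_dvd_of_le hle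
  rw [Subgroup.card_map_of_injective H.subtype_injective, hT] at h5
  exact Nat.pow_succ_factorization_not_dvd Nat.card_pos.ne' hr h5

/-- **[STEPA]** -/
theorem pkgStepA (hMelt : PkgMelt.{u}) (hSyl : PkgSyl.{u}) : PkgStepA.{u} := by
  intro G _ _ m n hyp hng w hw hab
  obtain ⟨x0, r, k0, hr, hrm, hox0, hix0⟩ := hMelt m n hyp hng
  have hrF : Fact r.Prime := ⟨hr⟩
  have hm1 := hyp.2.1
  have hn1 := hyp.2.2.1
  obtain ⟨s, hs, hsm⟩ := Nat.exists_prime_and_dvd (by omega : m ≠ 1)
  obtain ⟨b0, hb0, hcb0⟩ := hSyl m n hyp s hs hsm x0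
  have hib0 : idx b0 = m * n := idx_PM hyp hng hb0
  have hx0c : x0 ∉ Subgroup.center G := not_center_of_idx_m hyp hix0
  -- a non-central `r`-element of `C(w)`
  have hcard : Nat.card (Subgroup.centralizer ({w} : Set G)) =
      Nat.card (Subgroup.centralizer ({b0} : Set G)) := by
    have e1 := Subgroup.card_mul_index (Subgroup.centralizer ({w} : Set G))
    have e2 := Subgroup.card_mul_index (Subgroup.centralizer ({b0} : Set G))
    have hw' : (Subgroup.centralizer ({w} : Set G)).index = m * n := hw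
    have hb' : (Subgroup.centralizer ({b0} : Set G)).index = m * n := hib0
    rw [hw'] at e1
    rw [hb', ← e1] at e2
    have hpos : 0 < m * n := Nat.mul_pos (by omega) (by omega)
    exact (Nat.eq_of_mul_eq_mul_right hpos e2).symm
  obtain ⟨y1, hy1H, hy1c, k1, hk1⟩ := exists_noncentral_pelem x0 k0 hox0 hx0c
    (Subgroup.centralizer ({b0} : Set G)) (Subgroup.centralizer ({w} : Set G))
    (mem_cent.mpr hcb0.symm) (Subgroup.center_le_centralizer _) hcard
  rw [mem_cent] at hy1H
  rcases idx_mem hyp y1 with h | h | h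
  · exact absurd ((idx_one_iff y1).mp h) hy1c
  · exact ⟨y1, r, k1, hr, hrm, hk1, hy1H, h⟩
  · -- `C(y1) = C(w)`
    have hCy : ∀ g : G, Commute g y1 ↔ Commute g w :=
      cent_eq_of_abC hab hy1H (by rw [hw, h])
    -- a Sylow `r`-subgroup containing `y1`
    have hzp : IsPGroup r (Subgroup.zpowers y1) :=
      IsPGroup.of_card (n := k1) (by rw [Nat.card_zpowers, hk1])
    obtain ⟨R, hR⟩ := hzp.exists_le_sylow
    have hy1R : y1 ∈ (R : Subgroup G) := hR (Subgroup.mem_zpowers y1)
    have hnd : ¬ r ∣ (Subgroup.centralizer ({x0} : Set G)).index := by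
      have : (Subgroup.centralizer ({x0} : Set G)).index = m := hix0
      rw [this]
      exact hrm
    obtain ⟨c, hc⟩ := Cfsg.Agent.Lib.Helper67.exists_conj_mem_centralizer_sylow R x0 hnd
    rw [Subgroup.mem_centralizer_iff] at hc
    have hcy : Commute (c * x0 * c⁻¹) y1 := (hc y1 hy1R).symm
    refine ⟨c * x0 * c⁻¹, r, k0, hr, hrm, ?_, (hCy _).mp hcy, ?_⟩
    · rw [orderOf_conj', hox0]
    · rw [idx_conj, hix0]

end Cfsg.Agent.Lib.Helper24.CS3
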